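import Mathlib
import Cfsg.Prelude.Def_Involutions
import Cfsg.Agent.H8S.Simple
import Cfsg.Agent.H8S.Count
import Cfsg.Agent.BS.Conseq
import Cfsg.Agent.H12.DegreeSeven

/-!
# The even case
-/

set_option autoImplicit false
set_option linter.style.haveILetI false
set_option linter.unusedVariables false
set_option linter.unusedSectionVars false

open Subgroup MulAction

namespace Cfsg.Agent.H8S

open Cfsg

theorem ti_mem {G : Type*} [Group G] {E : Subgroup G}
    (hTI : ∀ g : G, g ∉ normalizer (E : Set G) → E ⊓ E.map (MulAut.conj g).toMonoidHom = ⊥) {x g : G} (hx : x ∈ E)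
    (hx1 : x ≠ 1) (h : g * x * g⁻¹ ∈ E) : g ∈ normalizer (E : Set G) := by
  by_contra hg
  have h1 := hTI g hg
  have h2 : g * x * g⁻¹ ∈ E ⊓ E.map (MulAut.conj g).toMonoidHom := ⟨h, ⟨x, hx, rfl⟩⟩
  rw [h1, Subgroup.mem_bot] at h2
  apply hx1
  have h3 : x = g⁻¹ * (g * x * g⁻¹) * g := by group
  rw [h3, h2]; group

/-- the unique involution of a cyclic group -/
theorem unique_inv {G : Type*} [Group G] [Finite G] {E : Subgroup G} (hE : IsCyclic E) {s t : G} (hs : s ∈ E) (ht : t ∈ E)
    (hs2 : orderOf s = 2) (ht2 : orderOf t = 2) : s = t := by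
  haveI := Fintype.ofFinite E
  have h1 := IsCyclic.card_orderOf_eq_totient (α := E) (d := 2) (by
    rw [← Nat.card_eq_fintype_card, ← ht2]
    exact Subgroup.orderOf_dvd_natCard _ ht)
  rw [Nat.totient_two, Finset.card_eq_one] at h1
  obtain ⟨z, hz⟩ := h1
  have h2 : (⟨s, hs⟩ : E) ∈ ({z} : Finset E) := by
    rw [← hz, Finset.mem_filter]
    exact ⟨Finset.mem_univ _, by rw [Subgroup.orderOf_mk]; exact hs2⟩
  have h3 : (⟨t, ht⟩ : E) ∈ ({z} : Finset E) := by
    rw [← hz, Finset.mem_filter]
    exact ⟨Finset.mem_univ _, by rw [Subgroup.orderOf_mk]; exact ht2⟩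
  rw [Finset.mem_singleton] at h2 h3
  exact congrArg Subtype.val (h2.trans h3.symm)

variable {α : Type*} [Fintype α] [DecidableEq α] {p : ℕ} [hp : Fact p.Prime]

theorem not_solvable_of_simple {G : Type*} [Group G] [IsSimpleGroup G] (hna : ∃ a b : G, a * b ≠ b * a) :
    ¬ Group.IsSolvable G := by
  intro h
  obtain ⟨a, b, hab⟩ := hna
  exact hab (IsSimpleGroup.comm_iff_isSolvable.2 h a b)

theorem even_sign {G : Subgroup (Equiv.Perm α)} [IsSimpleGroup G] (hna : ∃ a b : G, a * b ≠ b * a) (g : G) :
    Equiv.Perm.sign (g : Equiv.Perm α) = 1 := by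
  let f : G →* ℤˣ := Equiv.Perm.sign.comp G.subtype
  rcases (MonoidHom.normal_ker f).eq_bot_or_eq_top with h | h
  · exfalso
    obtain ⟨a, b, hab⟩ := hna
    apply hab
    apply (MonoidHom.ker_eq_bot_iff f).1 h
    rw [map_mul, map_mul, mul_comm]
  · have h1 : g ∈ f.ker := by rw [h]; exact mem_top g
    exact h1

theorem odd_of_full {G : Subgroup (Equiv.Perm α)} {E : Subgroup G} (hcyc : IsCyclic E) {a0 : α}
    (hfix : ∀ x ∈ E, x ≠ 1 → ∀ a : α, x • a = a ↔ a = a0) (hE : Nat.card E = Fintype.card α - 1)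
    (hodd : Odd (Fintype.card α)) (h2 : 2 ≤ Nat.card E) : ∃ g : G, Equiv.Perm.sign (g : Equiv.Perm α) ≠ 1 := by
  classical
  obtain ⟨g, hg⟩ := hcyc.exists_generator
  have hg1 : (g : G) ≠ 1 := by
    intro h
    have h1 : Nat.card E ≤ 1 := by
      rw [Finite.card_le_one_iff_subsingleton]
      refine ⟨fun a b => ?_⟩
      have h3 : g = 1 := Subtype.ext h
      obtain ⟨i, hi⟩ := hg a
      obtain ⟨j, hj⟩ := hg b
      rw [h3] at hi hj
      simp only [one_zpow] at hi hj
      rw [← hi, ← hj]
    omega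
  refine ⟨g, ?_⟩
  set σ : Equiv.Perm α := ((g : G) : Equiv.Perm α) with hσ
  have hσfix : ∀ a, σ a = a ↔ a = a0 := hfix g g.2 hg1
  have hsupp : σ.support = Finset.univ.erase a0 := by
    ext a
    rw [Equiv.Perm.mem_support, Finset.mem_erase, ne_eq, hσfix]
    simp
  have hsc : σ.support.card = Nat.card E := by
    rw [hsupp, Finset.card_erase_of_mem (Finset.mem_univ _), Finset.card_univ, hE]
  have hcycle : σ.IsCycle := by
    have hne : σ.support.Nonempty := by
      rw [← Finset.card_pos, hsc]; omega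
    obtain ⟨x, hx⟩ := hne
    rw [Equiv.Perm.mem_support] at hx
    refine ⟨x, hx, fun y hy => ?_⟩
    have hx0 : x ≠ a0 := fun h => hx ((hσfix x).2 h)
    have hy0 : y ≠ a0 := fun h => hy ((hσfix y).2 h)
    -- orbit map
    have hinj : Function.Injective (fun e : E => (e : G) • x) := by
      intro e e' h
      have h' : (e : G) • x = (e' : G) • x := h
      by_contra hne
      have h1 : ((e' : G)⁻¹ * e) ≠ 1 := by
        intro h2
        rw [inv_mul_eq_one] at h2
        exact hne (Subtype.ext h2.symm)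
      have h2 : ((e' : G)⁻¹ * e) • x = x := by
        rw [mul_smul, h', inv_smul_smul]
      exact hx0 ((hfix _ (mul_mem (inv_mem e'.2) e.2) h1 x).1 h2)
    haveI := Fintype.ofFinite E
    have him : (Finset.univ : Finset E).image (fun e : E => (e : G) • x) = σ.support := by
      apply Finset.eq_of_subset_of_card_le
      · intro z hz
        obtain ⟨e, -, rfl⟩ := Finset.mem_image.1 hz
        rw [hsupp, Finset.mem_erase]
        refine ⟨?_, Finset.mem_univ _⟩
        intro h
        by_cases he : (e : G) = 1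
        · rw [he, one_smul] at h
          exact hx0 h
        · have h3 : (e : G) • a0 = a0 := (hfix e e.2 he a0).2 rfl
          have h4 : (e : G) • x = (e : G) • a0 := h.trans h3.symm
          exact hx0 (MulAction.injective _ h4)
      · rw [hsc, Finset.card_image_of_injective _ hinj, Finset.card_univ, Nat.card_eq_fintype_card]
    have hy' : y ∈ (Finset.univ : Finset E).image (fun e : E => (e : G) • x) := by
      rw [him, Equiv.Perm.mem_support]; exact hy
    obtain ⟨e, -, he⟩ := Finset.mem_image.1 hy'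
    obtain ⟨i, hi⟩ := hg e
    refine ⟨i, ?_⟩
    rw [← he]
    have h5 : (e : G) = (g : G) ^ i := (congrArg Subtype.val hi).symm
    show (σ ^ i) x = (e : G) • x
    rw [h5]
    rfl
  rw [hcycle.sign, hsc, hE]
  have h6 : Even (Fintype.card α - 1) := by
    obtain ⟨k, hk⟩ := hodd
    exact ⟨k, by omega⟩
  rw [h6.neg_one_pow]
  decide

theorem even_case (hα : Fintype.card α = p) (G : Subgroup (Equiv.Perm α)) [IsPretransitive G α]
    (P : Sylow p G) (E : Subgroup G) {u : G} {a0 : α} {χ : IrrCharacter G} (D : Data p G (P : Subgroup G) E u a0 χ)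
    (hNE : Nat.card (Subgroup.normalizer (E : Set G)) = 2 * Nat.card E)
    (hTI : ∀ g : G, g ∉ Subgroup.normalizer (E : Set G) → E ⊓ E.map (MulAut.conj g).toMonoidHom = ⊥)
    (heven : Even (Nat.card E)) : p = 5 ∧ Nat.card E = 2 := by
  classical
  have h2f : Fact (Nat.Prime 2) := ⟨Nat.prime_two⟩
  haveI := D.simple
  have hns := not_solvable_of_simple D.nonab
  have hp5 := D.five
  have h3 : IsMultiplyPretransitive G α 3 := H12.three_transitive_prime_degree hα G hns P (by
    rw [D.cardN]; exact heven.mul_left p)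
  obtain ⟨t', ht'⟩ := exists_prime_orderOf_dvd_card' (G := E) 2 heven.two_dvd
  obtain ⟨t, ht, hto⟩ : ∃ t : G, t ∈ E ∧ orderOf t = 2 := ⟨t', t'.2, by rw [Subgroup.orderOf_coe]; exact ht'⟩
  have ht1 : t ≠ 1 := by
    rintro rfl
    rw [orderOf_one] at hto; omega
  have htt : t * t = 1 := by rw [← pow_two, ← hto, pow_orderOf_eq_one]
  have hodd : Odd p := hp.out.odd_of_ne_two (by omega)
  set W := normalizer (E : Set G) with hW
  have hCW : centralizer ({t} : Set G) = W := by
    apply le_antisymm
    · intro g hg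
      rw [Subgroup.mem_centralizer_singleton_iff] at hg
      apply ti_mem hTI ht ht1
      rw [hg, mul_assoc, mul_inv_cancel, mul_one]
      exact ht
    · intro g hg
      have h1 : g * t * g⁻¹ ∈ E := (Subgroup.mem_normalizer_iff.1 hg t).1 ht
      have h2 : orderOf (g * t * g⁻¹) = 2 := by
        rw [← hto]
        exact (SemiconjBy.orderOf_eq g (show SemiconjBy g t (g * t * g⁻¹) by
          show g * t = g * t * g⁻¹ * g
          group)).symm
      have h4 := unique_inv D.cyc h1 ht h2 hto
      rw [Subgroup.mem_centralizer_singleton_iff]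
      calc g * t = g * t * g⁻¹ * g := by group
        _ = t * g := by rw [h4]
  have hCc : Nat.card (centralizer ({t} : Set G)) = 2 * Nat.card E := by rw [hCW, hNE]
  have htfix : ∀ a : α, t • a = a ↔ a = a0 := D.fix t ht ht1
  have htc : ∀ c : α, c ≠ a0 → t • c ≠ c := fun c hc h => hc ((htfix c).1 h)
  have hta : t • a0 = a0 := (htfix a0).2 rfl
  have ht2 : ∀ c : α, t • t • c = c := by
    intro c; rw [← mul_smul, htt, one_smul]
  -- pick a point
  obtain ⟨a, ha⟩ : ∃ a : α, a ≠ a0 := by
    have : 1 < Fintype.card α := by omega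
    exact Fintype.exists_ne_of_one_lt_card this a0
  have hb : t • a ≠ a0 := by
    intro h
    apply ha
    have h4 : t • a = t • a0 := h.trans hta.symm
    exact MulAction.injective t h4
  obtain ⟨hle, -⟩ := count_conj h3 ht2 hta htc (htc a ha).symm ha hb hta rfl (ht2 a) (le_of_eq hCc)
  rw [hα] at hle
  obtain ⟨k, hk⟩ := D.dvd
  have he2 := D.two
  have hk12 : k = 1 ∨ k = 2 := by
    have h4 : k ≤ 2 := by
      have h5 : Nat.card E * k ≤ Nat.card E * 2 := by rw [← hk]; omega
      exact Nat.le_of_mul_le_mul_left h5 (by omega)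
    have h5 : k ≠ 0 := by
      rintro rfl
      omega
    omega
  rcases hk12 with rfl | rfl
  · exfalso
    obtain ⟨g, hg⟩ := odd_of_full D.cyc D.fix (by rw [hα]; omega) (by rw [hα]; exact hodd) he2
    exact hg (even_sign D.nonab g)
  -- all involutions fixing `a0` are conjugate to `t` in the stabilizer
  have hinv : ∀ s : G, orderOf s = 2 → s • a0 = a0 → ∃ h : G, h • a0 = a0 ∧ h * t * h⁻¹ = s := by
    intro s hs hs0
    have hss : s * s = 1 := by rw [← pow_two, ← hs, pow_orderOf_eq_one]
    obtain ⟨c, hc⟩ : ∃ c : α, s • c ≠ c := by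
      by_contra h
      push Not at h
      have : s = 1 := by
        apply Subtype.ext
        apply Equiv.ext
        intro x
        exact h x
      rw [this, orderOf_one] at hs; omega
    have hc0 : c ≠ a0 := by rintro rfl; exact hc hs0
    have hsc0 : s • c ≠ a0 := by
      intro h
      apply hc0
      have h4 : s • c = s • a0 := h.trans hs0.symm
      exact MulAction.injective s h4
    exact (count_conj h3 ht2 hta htc hc.symm hc0 hsc0 hs0 rfl (by rw [← mul_smul, hss, one_smul])
      (le_of_eq hCc)).2 (by rw [hα]; omega)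
  have hinvfix : ∀ s : G, orderOf s = 2 → s • a0 = a0 → ∀ c : α, s • c = c → c = a0 := by
    intro s hs hs0 c hc
    obtain ⟨h, hh, rfl⟩ := hinv s hs hs0
    have h4 : t • (h⁻¹ • c) = h⁻¹ • c := by
      rw [mul_smul, mul_smul] at hc
      rw [eq_inv_smul_iff]
      exact hc
    have h5 := (htfix _).1 h4
    rw [inv_smul_eq_iff, hh] at h5
    exact h5
  set H := stabilizer G a0 with hH
  have hHi : H.index = p := by
    have := index_stabilizer_of_transitive G a0
    rw [Nat.card_eq_fintype_card, hα] at this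
    exact this
  have hSE : Cfsg.IsStronglyEmbedded H := by
    refine ⟨?_, ?_, ?_⟩
    · intro h
      rw [h, Subgroup.index_top] at hHi
      omega
    · have h4 : orderOf t ∣ Nat.card H := Subgroup.orderOf_dvd_natCard H hta
      rw [hto] at h4
      exact even_iff_two_dvd.2 h4
    · intro g hg
      rw [← Nat.not_even_iff_odd]
      intro hev
      obtain ⟨s', hs'⟩ := exists_prime_orderOf_dvd_card' (G := ↥(H ⊓ H.map (MulAut.conj g).toMonoidHom)) 2 hev.two_dvd
      obtain ⟨s, hs⟩ := s'
      rw [Subgroup.orderOf_mk] at hs'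
      have h4 : s • a0 = a0 := hs.1
      obtain ⟨r, hr, hrs⟩ := hs.2
      have h5 : s • (g • a0) = g • a0 := by
        rw [← hrs]
        show (g * r * g⁻¹) • g • a0 = g • a0
        rw [mul_smul, mul_smul, inv_smul_smul]
        have h6 : r • a0 = a0 := hr
        rw [h6]
      exact hg (hinvfix s hs' h4 _ h5)
  obtain ⟨S, hS⟩ := BS.exists_eq_normalizer D.nonab hSE
  have hSc : Nat.card S + 1 = p := by
    rw [← hHi]
    exact (H23.Bend.index_of_num hSE (BS.num_of_inList (BS.bender D.nonab hSE)) S).symm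
  have hWH : W ≤ H := by
    intro w hw
    rw [← hCW, Subgroup.mem_centralizer_singleton_iff] at hw
    show w • a0 = a0
    apply (htfix _).1
    rw [← mul_smul, ← hw, mul_smul, hta]
  have hWc : Nat.card W = Nat.card (S : Subgroup G) := by
    rw [hNE]
    show 2 * Nat.card E = Nat.card S
    omega
  have hWS : W = (S : Subgroup G) := by
    have h4 : IsPGroup 2 W := by
      obtain ⟨n, hn⟩ := S.isPGroup'.exists_card_eq
      exact IsPGroup.of_card (n := n) (by rw [hWc, hn])
    have h5 : W ⊓ normalizer ((S : Subgroup G) : Set G) = W ⊓ (S : Subgroup G) := h4.inf_normalizer_sylow S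
    rw [← hS, inf_eq_left.2 hWH] at h5
    have h6 : W ≤ (S : Subgroup G) := inf_eq_left.1 h5.symm
    exact Subgroup.eq_of_le_of_card_ge h6 (le_of_eq hWc.symm)
  by_cases h4e : 4 ∣ Nat.card E
  · exfalso
    -- an element of order 4
    haveI := D.cyc
    obtain ⟨g0, hg0⟩ := D.cyc.exists_generator
    obtain ⟨q, hq⟩ := h4e
    have hog : orderOf g0 = Nat.card E := orderOf_eq_card_of_forall_mem_zpowers hg0
    have hq0 : q ≠ 0 := by rintro rfl; omega
    have hx2 : orderOf ((g0 : G) ^ (q * 2)) = 2 := by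
      rw [orderOf_pow, Subgroup.orderOf_coe, hog, hq]
      have h7 : Nat.gcd (4 * q) (q * 2) = q * 2 := by
        apply Nat.gcd_eq_right
        exact ⟨2, by ring⟩
      rw [h7, show 4 * q = 2 * (q * 2) by ring]
      exact Nat.mul_div_cancel _ (by omega)
    have hxt : (g0 : G) ^ (q * 2) = t := unique_inv D.cyc (pow_mem g0.2 _) ht hx2 hto
    have hsq : ∀ w ∈ W, w * w ∈ E := by
      intro w hw
      have hEW : E ≤ W := Subgroup.le_normalizer
      have h7 : (E.subgroupOf W).index = 2 := by
        have h8 := Subgroup.card_mul_index (E.subgroupOf W)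
        rw [Nat.card_congr (Subgroup.subgroupOfEquivOfLe hEW).toEquiv, hNE] at h8
        rw [mul_comm 2] at h8
        exact Nat.eq_of_mul_eq_mul_left (by omega) h8
      have h9 := Subgroup.sq_mem_of_index_two h7 ⟨w, hw⟩
      rw [Subgroup.mem_subgroupOf] at h9
      rw [← pow_two]
      exact h9
    have hHW : H ≤ W := by
      intro h hh
      have hhN := hh
      rw [hS, ← hWS] at hhN
      have h7 : h * (g0 : G) ^ q * h⁻¹ ∈ W :=
        (Subgroup.mem_normalizer_iff.1 hhN _).1 (Subgroup.le_normalizer (pow_mem g0.2 q))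
      have h8 := hsq _ h7
      have h9 : h * (g0 : G) ^ q * h⁻¹ * (h * (g0 : G) ^ q * h⁻¹) = h * t * h⁻¹ := by
        rw [← hxt, pow_mul, pow_two]; group
      rw [h9] at h8
      exact ti_mem hTI ht ht1 h8
    have h7 : Nat.card H ≤ p - 1 := by
      calc Nat.card H ≤ Nat.card W := Nat.card_le_card_of_injective _ (Subgroup.inclusion_injective hHW)
        _ = p - 1 := by rw [hNE, hk]; ring
    have h8 := H12.dvd_card_of_multiplyPretransitive_three h3 (by omega)
    rw [hα, ← H.card_mul_index, hHi] at h8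
    have h9 := Nat.le_of_dvd (Nat.mul_pos Nat.card_pos hp.out.pos) h8
    have h10 : Nat.card H * p ≤ (p - 1) * p := Nat.mul_le_mul_right _ h7
    have h11 : p * (p - 1) * (p - 2) ≤ p * (p - 1) * 1 := by
      calc p * (p - 1) * (p - 2) ≤ Nat.card H * p := h9
        _ ≤ (p - 1) * p := h10
        _ = p * (p - 1) * 1 := by ring
    have h12 := Nat.le_of_mul_le_mul_left h11 (Nat.mul_pos hp.out.pos (by omega))
    omega
  · obtain ⟨n, hn⟩ := S.isPGroup'.exists_card_eq
    have h5 : 2 * Nat.card E = 2 ^ n := by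
      rw [← hn, ← hWc, hNE]
    have h6 : n = 2 := by
      have hn3 : n < 3 := by
        by_contra h
        obtain ⟨m, rfl⟩ : ∃ m, n = m + 3 := ⟨n - 3, by omega⟩
        apply h4e
        refine ⟨2 ^ m, ?_⟩
        have : 2 * Nat.card E = 2 * (4 * 2 ^ m) := by rw [h5]; ring
        omega
      interval_cases n
      · omega
      · obtain ⟨j, hj⟩ := heven
        omega
      · rfl
    rw [h6] at h5
    have h7 : Nat.card E = 2 := by omega
    refine ⟨?_, h7⟩
    have h8 : Nat.card S = 4 := by
      rw [← hWc, hNE, h7]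
    omega

end Cfsg.Agent.H8S
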